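import Cfsg.Agent.H129.HalfT
import Cfsg.Agent.H720.RealTw
import Cfsg.Agent.H944.RootVals

/-!
# Real elements of odd prime order in `E₇(q)`, `q` odd (helper142)

* `exists_not_range` : a twisted torus of `Y^σ` contains an element outside the image of the finite group, if the centre
  of the simply connected cover is not trivial and is fixed by the Frobenius map (the argument of
  `H129.StCover.not_mem_range`);
* `real_of_two` : `-1` in the Weyl group, the image of the finite group of index two in the fixed points: a real element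
  of order `r` for every odd prime `r` dividing the order and different from the characteristic;
* `real_E7`.
-/

set_option autoImplicit false
set_option linter.unusedSectionVars false

namespace Cfsg.Agent.H142.EP.TorRange

open CoxeterSystem Cfsg Cfsg.Lie Cfsg.Lie.ChevalleyDatum
open Cfsg.Agent.ChevalleyStructure Cfsg.Agent.ChevalleyStructure.Elts Cfsg.Agent.ChevalleyStructure.CoxeterGeom
  Cfsg.Agent.ChevalleyStructure.CoxeterGeomTypes Cfsg.Agent.ChevalleyStructure.NPerm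
open Cfsg.Agent.Tits.Roots Cfsg.Agent.Tits.Core Cfsg.Agent.Nodes Cfsg.Agent.Nodes.Reps Cfsg.Agent.Nodes.BNOf
  Cfsg.Agent.Nodes.RGDChev
open Cfsg.Agent.KFacts.RgdChevCoord Cfsg.Agent.GpExc.Field Cfsg.Agent.H129.TorusUntw
open Cfsg.Agent.ChevalleyStructure.StBasic Cfsg.Agent.ChevalleyStructure.StTheta
open Cfsg.Agent.H129.StCover

universe u

section Main

variable {D : ChevalleyDatum} {l : ℕ} {M : CoxeterMatrix (Fin l)} (hp : IsType D l M) {k : Type u} [Field k]
  [IsAlgClosed k] {W : Type*} [Group W] (cs : CoxeterSystem M W) {p e : ℕ} [Fact p.Prime] [CharP k p]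
  {Φ : (Fin D.rank → kˣ) →* D.SteinbergGroup k} (hΦ : IsPhi Φ)

include hp cs hΦ in
/-- **A twisted torus contains an element outside the image of the finite group**, if the centre of the cover is not
trivial and is fixed by the Frobenius map. -/
theorem exists_not_range {F : Type u} [Field F] [Fintype F] (f : F →+* k) (hq : Fintype.card F = p ^ e)
    {c : Fin D.rank → kˣ} (hc : ∀ s < D.nroots, ∏ i : Fin D.rank, c i ^ D.cartan i s = 1) (hc1 : c ≠ 1)
    (hfix : ∀ b : Fin D.rank → kˣ, (∀ s < D.nroots, ∏ i : Fin D.rank, b i ^ D.cartan i s = 1) → ∀ i,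
      b i ^ p ^ e = b i)
    {hN : NSys M (TT D k) (nc hp k)} {w : W} {n z : ↥(D.group k)} (hn : Rp cs hN w n)
    (hz : n = z⁻¹ * phi D k p e z) :
    ∃ s ∈ TT D k, n * phi D k p e s * n⁻¹ = s ∧ z * s * z⁻¹ ∉ (emb hp.inList f).range := by
  have hD := hp.inList
  have hq2 : 2 ≤ p ^ e := by rw [← hq]; exact Fintype.one_lt_card
  set φ : k →+* k := iterateFrobenius k p e with hφ
  have hφf : φ.comp f = f := by
    ext a
    exact (frob_fix_iff f hq (f a)).2 ⟨a, rfl⟩
  -- the representative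
  obtain ⟨ω, rfl⟩ := cs.wordProd_surjective w
  have hrp : Rp cs hN (cs.wordProd ω) (theta hD k (nW D k ω)) := by
    clear hn
    induction ω with
    | nil =>
      rw [wordProd_nil]
      have : theta hD k (nW D k ([] : List (Fin l))) = 1 := by simp [nW]
      rw [this]
      exact rp_one
    | cons i ω ih =>
      rw [wordProd_cons, nW_cons, map_mul, theta_stn_simple hp]
      exact (rp_simple cs hN i).mul ih
  have ht0 : (theta hD k (nW D k ω))⁻¹ * n ∈ TT D k := hrp.unique hn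
  obtain ⟨A, hA⟩ := exists_matrix hD hΦ (lt_rank hp) ω
  -- the solution
  obtain ⟨b, hb⟩ := exists_solution A hq2 c
  have hσb : stMap D φ (Φ b) = Φ (fun i => b i ^ p ^ e) := by
    rw [stMap_phi hΦ]
    refine congrArg Φ (funext fun i => Units.ext ?_)
    rw [Units.val_pow_eq_pow_val]
    exact iterateFrobenius_def _ _ _
  have hτ : nW D k ω * stMap D φ (Φ b) * (nW D k ω)⁻¹ = Φ b * Φ c := by
    rw [hσb, hA, hb, map_mul]
  have hcc : Φ c ∈ Subgroup.center (D.SteinbergGroup k) := (hΦ.mem_iff c).2 hc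
  have hθc : theta hD k (Φ c) = 1 := by
    rw [← MonoidHom.mem_ker, ker_theta hD]; exact hcc
  have hθσ : ∀ x : D.SteinbergGroup k, theta hD k (stMap D φ x) = phi D k p e (theta hD k x) := fun x => by
    rw [theta_stMap, phi_eq hp]
  -- the element `s`
  have hs : theta hD k (Φ b) ∈ TT D k := theta_phi_mem hD hΦ b
  have hσs : phi D k p e (theta hD k (Φ b)) ∈ TT D k := ((fr_phi hp cs).tor _).2 hs
  have hns : n * phi D k p e (theta hD k (Φ b)) * n⁻¹ = theta hD k (Φ b) := by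
    have h1 := congrArg (theta hD k) hτ
    rw [map_mul, map_mul, map_inv, map_mul, hθc, mul_one, hθσ] at h1
    have h2 : n = theta hD k (nW D k ω) * ((theta hD k (nW D k ω))⁻¹ * n) := by group
    have h3 := Cfsg.Agent.BpExc.TorChev.TT_comm hp _ ht0 _ hσs
    rw [h2]
    calc theta hD k (nW D k ω) * ((theta hD k (nW D k ω))⁻¹ * n) * phi D k p e (theta hD k (Φ b)) *
          (theta hD k (nW D k ω) * ((theta hD k (nW D k ω))⁻¹ * n))⁻¹
        = theta hD k (nW D k ω) * ((((theta hD k (nW D k ω))⁻¹ * n) * phi D k p e (theta hD k (Φ b))) *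
          ((theta hD k (nW D k ω))⁻¹ * n)⁻¹) * (theta hD k (nW D k ω))⁻¹ := by group
      _ = theta hD k (nW D k ω) * phi D k p e (theta hD k (Φ b)) * (theta hD k (nW D k ω))⁻¹ := by
        rw [h3]; group
      _ = _ := h1
  refine ⟨theta hD k (Φ b), hs, hns, ?_⟩
  rintro ⟨x, hx⟩
  obtain ⟨x', rfl⟩ := theta_surjective hD x
  obtain ⟨z', rfl⟩ := theta_surjective hD z
  set E := stMap D f x' with hE
  have hEfix : stMap D φ E = E := by rw [hE, stMap_comp, hφf]
  have hθE : theta hD k E = theta hD k (z' * Φ b * z'⁻¹) := by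
    rw [hE, theta_stMap, hx, map_mul, map_mul, map_inv]
  have key : ∀ {x y : D.SteinbergGroup k}, theta hD k x = theta hD k y →
      ∃ κ ∈ Subgroup.center (D.SteinbergGroup k), y = x * κ := by
    intro x y hxy
    refine ⟨x⁻¹ * y, ?_, by group⟩
    rw [← ker_theta hD, MonoidHom.mem_ker, map_mul, map_inv, hxy, inv_mul_cancel]
  obtain ⟨κ, hκ, h1⟩ := key hθE
  -- the Frobenius map is trivial on the centre
  have hcen : ∀ κ ∈ Subgroup.center (D.SteinbergGroup k), stMap D φ κ = κ := by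
    intro κ hκ
    obtain ⟨a, rfl⟩ := hΦ.center_le hκ
    have h2 := hfix a ((hΦ.mem_iff a).1 hκ)
    rw [stMap_phi hΦ]
    refine congrArg Φ (funext fun i => Units.ext ?_)
    have h3 := congrArg Units.val (h2 i)
    rw [Units.val_pow_eq_pow_val] at h3
    exact (iterateFrobenius_def _ _ _).trans h3
  -- the lift of `z`
  obtain ⟨a, ha⟩ := exists_theta_phi hΦ hp ht0
  have hθn : theta hD k (nW D k ω * Φ a) = theta hD k (z'⁻¹ * stMap D φ z') := by
    rw [map_mul, ha, map_mul, map_inv, hθσ, ← hz]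
    group
  obtain ⟨κ', hκ', h2⟩ := key hθn
  have h3 : stMap D φ z' = z' * (nW D k ω * Φ a * κ') := by rw [← h2]; group
  have hκc : ∀ x : D.SteinbergGroup k, κ' * x * κ'⁻¹ = x := fun x => by
    rw [← Subgroup.mem_center_iff.1 hκ' x, mul_inv_cancel_right]
  have h4 : stMap D φ (z' * Φ b * z'⁻¹) = z' * (Φ b * Φ c) * z'⁻¹ := by
    rw [map_mul, map_mul, map_inv, h3, ← hτ]
    have h5 : Φ a * stMap D φ (Φ b) * (Φ a)⁻¹ = stMap D φ (Φ b) := by
      rw [hσb, ← map_mul, ← map_inv, ← map_mul]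
      congr 1
      exact mul_inv_cancel_comm _ _
    calc z' * (nW D k ω * Φ a * κ') * stMap D φ (Φ b) * (z' * (nW D k ω * Φ a * κ'))⁻¹
        = z' * (nW D k ω * (Φ a * (κ' * stMap D φ (Φ b) * κ'⁻¹) * (Φ a)⁻¹) * (nW D k ω)⁻¹) * z'⁻¹ := by group
      _ = z' * (nW D k ω * stMap D φ (Φ b) * (nW D k ω)⁻¹) * z'⁻¹ := by rw [hκc, h5]
  rw [h1, map_mul, hEfix, hcen κ hκ, ← h1] at h4
  have h5 : Φ c = 1 := by
    have h6 : z' * Φ b * z'⁻¹ = z' * Φ b * Φ c * z'⁻¹ := by rw [h4]; group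
    have h7 := mul_right_cancel h6
    exact (mul_eq_left.1 h7.symm)
  exact hc1 (hΦ.inj (by rw [h5, map_one]))

end Main

/-! ### real elements -/

open Cfsg.Agent.Nodes.Bruhat Cfsg.Agent.Nodes.SubComb Cfsg.Agent.Nodes.Coroot
open Cfsg.Agent.KFacts.RgdField Cfsg.Agent.BpExc.TorCent Cfsg.Agent.BpExc.TorChev
open Cfsg.Agent.BpExc.Tow Cfsg.Agent.BpExc.TowChev Cfsg.Agent.BpExc.Fr
  Cfsg.Agent.BpExc.LangFr Cfsg.Agent.LangThm Cfsg.Agent.BpExc Cfsg.Agent.H129.TorusChar Cfsg.Agent.H129.TorusCent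
  Cfsg.Agent.H129.TorusTw Cfsg.Agent.H129.TorusMain Cfsg.Agent.H720.TorusReal Cfsg.Agent.H720.RealTw
  Cfsg.Agent.H129.HalfT Cfsg.Agent.H129.UntwTwo
open Cfsg.Agent.ChevalleyStructure.StTorus (eval_eq_one)

section Real

variable {D : ChevalleyDatum} {l : ℕ} {M : CoxeterMatrix (Fin l)} (hp : IsType D l M)
  {W : Type*} [Group W] (cs : CoxeterSystem M W)

include hp cs in
/-- **Real elements**: `-1` in the Weyl group, `q` odd, centre of order two. -/
theorem real_of_two [Finite W] {F : Type u} [Field F] [Fintype F] {q : ℕ} (hq : Fintype.card F = q)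
    {B' : Fin l → Fin l → ℤ} (hB : InvC D l 2 B') (hdq : 2 ∣ q - 1)
    (hPhi : ∃ Φ : (Fin D.rank → (AlgebraicClosure F)ˣ) →* D.SteinbergGroup (AlgebraicClosure F), IsPhi Φ)
    {kv : Fin D.rank → ℤ} {i0 : Fin D.rank} (hk0 : kv i0 = 1)
    (hkv : ∀ s < D.nroots, (2 : ℤ) ∣ ∑ i : Fin D.rank, kv i * D.cartan i s)
    {Bc : Fin D.rank → Fin D.rank → ℤ}
    (hBc : ∀ i m : Fin D.rank, ∑ j : Fin D.rank, D.cartan i (D.simple j) * Bc j m = if i = m then (2 : ℤ) else 0)
    (hcard : 2 * Nat.card (D.diagonalSubgroup F) = (q - 1) ^ l)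
    {v : W} (hv : ∀ x, rep cs hp.isCartan v x = -x)
    {r : ℕ} (hr : r.Prime) (hr2 : r ≠ 2) (hrq : ¬ r ∣ q) (hrG : r ∣ Nat.card ↥(D.group F)) :
    ∃ x : ↥(D.group F), orderOf x = r ∧ IsConj x x⁻¹ := by
  obtain ⟨p, e, hpF, hpc, hpk, he, rfl, hk⟩ := exists_closure hq
  have hAk : Cfsg.Agent.BpExc.TorAll.HAlg p (AlgebraicClosure F) := Cfsg.Agent.H944.RootVals.hAlg_closure p F
  obtain ⟨Φ, hΦ⟩ := hPhi
  have hrp : r ≠ p := fun h => hrq (by rw [h]; exact dvd_pow_self p he.ne')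
  have hpd : ¬ p ∣ 2 := fun h1 => by
    have h2 : p = 2 := (Nat.prime_dvd_prime_iff_eq hpF.out Nat.prime_two).1 h1
    subst h2
    have h3 : 2 ∣ 2 ^ e := dvd_pow_self 2 he.ne'
    have h4 : 0 < 2 ^ e := Nat.pow_pos (by norm_num)
    omega
  -- the centre
  have hdk : ((2 : ℕ) : AlgebraicClosure F) ≠ 0 := by
    rw [Ne, CharP.cast_eq_zero_iff (AlgebraicClosure F) p]
    exact hpd
  have : NeZero ((2 : ℕ) : AlgebraicClosure F) := ⟨hdk⟩
  obtain ⟨ζ, hζ⟩ := HasEnoughRootsOfUnity.exists_primitiveRoot (AlgebraicClosure F) 2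
  have hζ0 : ζ ≠ 0 := hζ.ne_zero (by norm_num)
  set ω : (AlgebraicClosure F)ˣ := Units.mk0 ζ hζ0 with hω
  have hωd : ω ^ 2 = 1 := Units.ext (by rw [Units.val_pow_eq_pow_val]; exact hζ.pow_eq_one)
  have hcc : ∀ s < D.nroots, ∏ i : Fin D.rank, (ω ^ kv i) ^ D.cartan i s = 1 := by
    intro s hs
    obtain ⟨a, ha⟩ := hkv s hs
    rw [Finset.prod_congr rfl fun i _ => (zpow_mul ω (kv i) (D.cartan i s)).symm, prod_zpow_sum, ha, zpow_mul]
    have e2 : ω ^ (2 : ℤ) = 1 := by
      rw [show (2 : ℤ) = ((2 : ℕ) : ℤ) by norm_num, zpow_natCast, hωd]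
    rw [e2, one_zpow]
  have hc1 : (fun i => ω ^ kv i : Fin D.rank → (AlgebraicClosure F)ˣ) ≠ 1 := by
    intro h1
    have h2 := congrFun h1 i0
    simp only [hk0, zpow_one, Pi.one_apply] at h2
    have h3 : ζ = 1 := congrArg Units.val h2
    rw [h3] at hζ
    exact absurd (hζ.eq_orderOf.trans orderOf_one) (by norm_num)
  have hfix : ∀ b : Fin D.rank → (AlgebraicClosure F)ˣ, (∀ s < D.nroots, ∏ i : Fin D.rank, b i ^ D.cartan i s = 1) →
      ∀ i, b i ^ p ^ e = b i := by
    intro b hb i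
    have h1 := eval_eq_one (fun i j : Fin D.rank => D.cartan i (D.simple j)) (fun j => Bc j i)
      (fun m => if m = i then (2 : ℤ) else 0) (fun m => hBc m i) b
      (fun j => hb (D.simple j) (simple_lt hp.inList j.2))
    rw [Finset.prod_eq_single i] at h1
    · rw [if_pos rfl, show (2 : ℤ) = ((2 : ℕ) : ℤ) by norm_num, zpow_natCast] at h1
      obtain ⟨a, ha⟩ := hdq
      have h2 : p ^ e = 2 * a + 1 := by
        have : 0 < p ^ e := Nat.pow_pos hpF.out.pos
        omega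
      rw [h2, pow_succ, pow_mul, h1, one_pow, one_mul]
    · intro j _ hj; rw [if_neg hj, zpow_zero]
    · intro hi; exact absurd (Finset.mem_univ _) hi
  have hnsys := nsys_of_locFin hp cs hk p
  set f := algebraMap F (AlgebraicClosure F) with hf
  have he0 := emb_injective hp.inList f
  have hFr := fr_phi (p := p) (e := e) (k := AlgebraicClosure F) hp cs
  obtain ⟨t, w, ht, htr, hτ⟩ := exists_torus_elt hp cs hAk hk isFrob_phi hFr hnsys he0 (phi_emb hp f hq) hr hrp hrG
  obtain ⟨n, hn⟩ := exists_rp cs hnsys w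
  obtain ⟨z, hz⟩ := lang_all hp cs he isFrob_phi hFr 1 n
  rw [map_one, one_mul] at hz
  have hσz : phi D (AlgebraicClosure F) p e z = z * n := by rw [hz]; group
  have hnt : n * phi D (AlgebraicClosure F) p e t * n⁻¹ = t := (tau_iff hp cs hk isFrob_phi hFr hn ht).2 hτ
  have hconj : ∀ s, n * phi D (AlgebraicClosure F) p e s * n⁻¹ = s →
      phi D (AlgebraicClosure F) p e (z * s * z⁻¹) = z * s * z⁻¹ := by
    intro s hs
    rw [map_mul, map_mul, map_inv, hσz]
    calc z * n * phi D (AlgebraicClosure F) p e s * (z * n)⁻¹ =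
        z * (n * phi D (AlgebraicClosure F) p e s * n⁻¹) * z⁻¹ := by group
      _ = z * s * z⁻¹ := by rw [hs]
  have hord : orderOf (z * t * z⁻¹) = r := by
    rw [← htr]
    have h3 : z * t * z⁻¹ = MulAut.conj z t := rfl
    rw [h3]
    exact orderOf_injective (MulAut.conj z).toMonoidHom (MulAut.conj z).injective t
  -- the element lies in the image
  have hx : z * t * z⁻¹ ∈ (emb hp.inList f).range :=
    mem_range_of_order (m := 2) (r := r) ((Nat.coprime_primes Nat.prime_two hr).2 (Ne.symm hr2))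
      (by rw [← hord]; exact pow_orderOf_eq_one _) (fix_pow_range hp cs f hq hB two_ne_zero (hconj t hnt))
  obtain ⟨x0, hx0⟩ := hx
  -- an inverting element
  obtain ⟨y, hy, hyx⟩ := real_fixed hp cs hk he isFrob_phi hFr hB two_ne_zero hn ht hz (w' := v) (j := -1)
    (fun x => by rw [hv, hv, map_neg])
    (fun x => by rw [hv, (isMC_cX hp ht).neg, zpow_neg, zpow_one, inv_inv])
  rw [zpow_neg, zpow_one] at hyx
  -- an inverting element in the image
  have key : ∃ g : ↥(D.group F), emb hp.inList f g * (z * t * z⁻¹) * (emb hp.inList f g)⁻¹ = (z * t * z⁻¹)⁻¹ := by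
    by_cases hy1 : y ∈ (emb hp.inList f).range
    · obtain ⟨g, hg⟩ := hy1
      exact ⟨g, by rw [hg]; exact hyx⟩
    · obtain ⟨s, hs, hns, hsr⟩ := exists_not_range hp cs hΦ f hq hcc hc1 hfix hn hz
      obtain ⟨g, hg⟩ := mul_mem_range hp cs f hq (by rw [hcard, hq]) hy (hconj s hns) hy1 hsr
      refine ⟨g, ?_⟩
      have h4 : s * t = t * s := Cfsg.Agent.BpExc.TorChev.TT_comm hp _ hs _ ht
      rw [hg, ← hyx]
      calc y * (z * s * z⁻¹) * (z * t * z⁻¹) * (y * (z * s * z⁻¹))⁻¹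
          = y * (z * (s * t) * s⁻¹ * z⁻¹) * y⁻¹ := by group
        _ = y * (z * t * z⁻¹) * y⁻¹ := by rw [h4]; group
  obtain ⟨g, hg⟩ := key
  rw [← hx0] at hg hord
  refine ⟨x0, by rw [← orderOf_injective (emb hp.inList f) he0 x0]; exact hord, isConj_iff.2 ⟨g, he0 ?_⟩⟩
  rw [map_mul, map_mul, map_inv, map_inv]
  exact hg

end Real

/-- **Real elements of odd prime order in `E₇(q)`, `q` odd.** -/
theorem real_E7 {F : Type u} [Field F] [Fintype F] {q : ℕ} (hq : Fintype.card F = q) (hodd : Odd q)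
    {r : ℕ} (hr : r.Prime) (hr2 : r ≠ 2) (hrq : ¬ r ∣ q) (hrG : r ∣ Nat.card ↥(chevE7.group F)) :
    ∃ x : ↥(chevE7.group F), orderOf x = r ∧ IsConj x x⁻¹ := by
  have hp : IsType chevE7 7 CoxeterMatrix.E₇ := by simp [IsType, typeList]
  have : Finite CoxeterMatrix.E₇.Group := finite_W hp CoxeterMatrix.E₇.toCoxeterSystem
  obtain ⟨v, hv⟩ := H129.HalfT.exists_neg CoxeterMatrix.E₇.toCoxeterSystem hp
  have hdq : 2 ∣ q - 1 := by
    obtain ⟨m, hm⟩ := hodd
    omega
  have hcard : 2 * Nat.card (chevE7.diagonalSubgroup F) = (q - 1) ^ 7 := by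
    have h1 := Cfsg.Agent.S1035.result (F := F) hq (chevE7, Nat.gcd 2 (q - 1)) (by simp)
    rw [Nat.gcd_eq_left hdq] at h1
    exact h1
  exact real_of_two hp CoxeterMatrix.E₇.toCoxeterSystem hq H129.TorusChar.invC_E7 hdq (H129.PhiE.isPhi_E7 _)
    (kv := ![0, 1, 0, 0, 1, 0, 1]) (i0 := ⟨6, by decide⟩) rfl (by decide +kernel)
    (Bc := ![![4, 4, 6, 8, 6, 4, 2], ![4, 7, 8, 12, 9, 6, 3], ![6, 8, 12, 16, 12, 8, 4],
      ![8, 12, 16, 24, 18, 12, 6], ![6, 9, 12, 18, 15, 10, 5], ![4, 6, 8, 12, 10, 8, 4],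
      ![2, 3, 4, 6, 5, 4, 3]]) (by decide +kernel) hcard hv hr hr2 hrq hrG

end Cfsg.Agent.H142.EP.TorRange
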